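import Cfsg.Agent.BG.T16_P

set_option autoImplicit false

namespace Cfsg.Agent.BG

open Subgroup Cfsg _root_.Cfsg.Agent.H49

/-- the frozen statement S1380 with the primed notions -/
theorem s1380' {G : Type*} [Group G] [Finite G] (hG : Cfsg.IsMinSimpleOddOrder G)
    (M : Subgroup G) (hM : IsCoatom M) (K U : Subgroup G) (hKU : Cfsg.IsSigmaDecomposition M K U) :
    IsOfTypeI' M ↔ (K = ⊥ ∧ U ≠ ⊥) := by
  have hK := (isSigmaDecomposition_iff hG hM).1 hKU
  rw [typeI'_iff hG hM, trivg_kappa hG hM hK.1, Ne, trivg_kappa_compl hG hM hK]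
  exact ⟨fun h => ⟨h, fun h1 => H78.not_typeP_of_typeF h h1.1⟩, fun h => h.1⟩

end Cfsg.Agent.BG
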