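import Cfsg.Agent.BG.T16_P

set_option autoImplicit false

namespace Cfsg.Agent.BG

open Subgroup Cfsg _root_.Cfsg.Agent.H49

theorem typeP_types {G : Type*} [Group G] [Finite G] (hG : IsMinSimpleOddOrder G) {M : Subgroup G}
    (h : TypeP M) : IsOfTypeII M ∨ IsOfTypeIII M ∨ IsOfTypeIV M ∨ IsOfTypeV M := by
  rcases H78.typeP1_or_typeP2 h with h1 | h1
  · right
    by_cases h2 : fittingHallOf M = sigmaCore M
    · exact Or.inr (Or.inr ((typeV_iff hG h.1).2 ⟨h1, h2⟩))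
    · exact ((typeIII_IV_iff hG h.1).2 ⟨h1, h2⟩).imp_right Or.inl
  · exact Or.inl ((typeII_iff hG h.1).2 h1)

/-- the frozen statement S1385 with the primed notions -/
theorem s1385' {G : Type*} [Group G] [Finite G] (hG : Cfsg.IsMinSimpleOddOrder G) :
    (∀ M : Subgroup G, IsCoatom M → IsOfTypeI' M) ∨
      ∃ W₁ W₂ S T : Subgroup G, Cfsg.IsSelfNormalizingCyclic W₁ W₂ ∧ IsCoatom S ∧ IsCoatom T ∧
        Cfsg.IsComplIn ⁅S, S⁆ W₁ S ∧ Cfsg.IsComplIn ⁅T, T⁆ W₂ T ∧ S ⊓ T = W₁ ⊔ W₂ ∧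
        (Cfsg.IsOfTypeII S ∨ Cfsg.IsOfTypeII T) ∧
        (Cfsg.IsOfTypeII S ∨ Cfsg.IsOfTypeIII S ∨ Cfsg.IsOfTypeIV S ∨ Cfsg.IsOfTypeV S) ∧
        (Cfsg.IsOfTypeII T ∨ Cfsg.IsOfTypeIII T ∨ Cfsg.IsOfTypeIV T ∨ Cfsg.IsOfTypeV T) ∧
        ∀ M : Subgroup G, IsCoatom M → IsOfTypeI' M ∨ ∃ g : G, M = S.map (MulAut.conj g).toMonoidHom ∨ M = T.map (MulAut.conj g).toMonoidHom := by
  by_cases h : ∃ M : Subgroup G, TypeP M
  · right
    obtain ⟨M, hM⟩ := h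
    obtain ⟨K, hK⟩ := H78.ex_kappa_hall hG hM.1
    obtain ⟨L, hL, -, -, ⟨h1, -⟩, -, ⟨-, h2, -⟩, -, h3, h4, h5⟩ := Ptype_embedding hG hM hK
    refine ⟨K, kStar M K, M, L, H78.typeP_selfNorm hG hM hK, hM.1, hL.1, h5.isComplIn,
      (H78.typeP_sdp hG hL h1).isComplIn, h2,
      h3.imp (fun h => (typeII_iff hG hM.1).2 h.1) (fun h => (typeII_iff hG hL.1).2 h.1),
      typeP_types hG hM, typeP_types hG hL, fun N hN => ?_⟩
    exact (H78.typeF_or_typeP hN).imp (typeI'_iff hG hN).2 (h4 N)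
  · left
    intro M hM
    exact (typeI'_iff hG hM).2 ((H78.typeF_or_typeP hM).resolve_right fun h1 => h ⟨M, h1⟩)

end Cfsg.Agent.BG
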